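import Mathlib
import Cfsg.Agent.Lib.Helper73.AB.Defs

set_option autoImplicit false

/-! Project AB (S2506), package ORB: the structure of a largest abelian subgroup of an
alternating group at one orbit. -/

namespace Cfsg.Agent.Lib.Helper27.AB

open Equiv
open Cfsg.Agent.Lib.Helper73.AB
open Cfsg.Agent.S2505 (gmax gmax_mul abelian_bound)

/-- The sign splits over an invariant finset. -/
theorem sign_split {Ω : Type} [Fintype Ω] [DecidableEq Ω] (O : Finset Ω) (g : Perm Ω)
    (h : ∀ x, g x ∈ O ↔ x ∈ O) :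
    Perm.sign g =
      Perm.sign (g.subtypePerm h) *
        Perm.sign (g.subtypePerm (p := fun x => x ∉ O) (fun x => (h x).not)) := by
  have h1 : g = Perm.subtypeCongr (g.subtypePerm h)
      (g.subtypePerm (p := fun x => x ∉ O) (fun x => (h x).not)) := by
    ext x
    by_cases hx : x ∈ O
    · rw [Perm.subtypeCongr.left_apply _ _ hx]; rfl
    · rw [Perm.subtypeCongr.right_apply _ _ hx]; rfl
  have h2 := Perm.sign_subtypeCongr (g.subtypePerm h)
    (g.subtypePerm (p := fun x => x ∉ O) (fun x => (h x).not))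
  rw [← h1] at h2
  convert h2

theorem fin3_unique : ∀ σ τ : Perm (Fin 3), (∀ x, σ x ≠ x) → (∀ x, τ x ≠ x) →
    ∀ a, σ a = τ a → σ = τ := by decide

theorem fin4_sign : ∀ σ : Perm (Fin 4), (∀ x, σ x ≠ x) → (∀ x, σ (σ x) ≠ x) →
    Perm.sign σ = -1 := by decide

theorem fin4_unique : ∀ σ τ : Perm (Fin 4), (∀ x, σ x ≠ x) → (∀ x, σ (σ x) = x) →
    (∀ x, τ x ≠ x) → (∀ x, τ (τ x) = x) → ∀ a, σ a = τ a → σ = τ := by decide

section transport

variable {Ω : Type} [DecidableEq Ω] (O : Finset Ω) {m : ℕ} (e : {x // x ∈ O} ≃ Fin m)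

/-- A permutation preserving `O`, transported to `Fin m`. -/
noncomputable def tp (g : Perm Ω) (h : ∀ x, g x ∈ O ↔ x ∈ O) : Perm (Fin m) :=
  e.permCongr (g.subtypePerm h)

theorem tp_apply (g : Perm Ω) (h : ∀ x, g x ∈ O ↔ x ∈ O) (x : Ω) (hx : x ∈ O) :
    tp O e g h (e ⟨x, hx⟩) = e ⟨g x, (h x).2 hx⟩ := by
  simp [tp, Equiv.permCongr_apply]

theorem tp_fpf (g : Perm Ω) (h : ∀ x, g x ∈ O ↔ x ∈ O) (hf : ∀ x ∈ O, g x ≠ x) :
    ∀ i, tp O e g h i ≠ i := by
  intro i hi
  obtain ⟨⟨x, hx⟩, rfl⟩ := e.surjective i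
  rw [tp_apply] at hi
  exact hf x hx (congrArg Subtype.val (e.injective hi))

theorem tp_invol (g : Perm Ω) (h : ∀ x, g x ∈ O ↔ x ∈ O) (hf : ∀ x ∈ O, g (g x) = x) :
    ∀ i, tp O e g h (tp O e g h i) = i := by
  intro i
  obtain ⟨⟨x, hx⟩, rfl⟩ := e.surjective i
  rw [tp_apply, tp_apply]
  exact congrArg e (Subtype.ext (hf x hx))

theorem tp_sq_fpf (g : Perm Ω) (h : ∀ x, g x ∈ O ↔ x ∈ O) (hf : ∀ x ∈ O, g (g x) ≠ x) :
    ∀ i, tp O e g h (tp O e g h i) ≠ i := by
  intro i hi
  obtain ⟨⟨x, hx⟩, rfl⟩ := e.surjective i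
  rw [tp_apply, tp_apply] at hi
  exact hf x hx (congrArg Subtype.val (e.injective hi))

theorem tp_eq (g k : Perm Ω) (hg : ∀ x, g x ∈ O ↔ x ∈ O) (hk : ∀ x, k x ∈ O ↔ x ∈ O)
    (heq : tp O e g hg = tp O e k hk) : ∀ x ∈ O, g x = k x := by
  intro x hx
  have h1 := congrArg (fun σ : Perm (Fin m) => σ (e ⟨x, hx⟩)) heq
  simp only [tp_apply] at h1
  exact congrArg Subtype.val (e.injective h1)

theorem tp_sign [Fintype Ω] (g : Perm Ω) (h : ∀ x, g x ∈ O ↔ x ∈ O)
    (h2 : ∀ x, g x ≠ x → x ∈ O) : Perm.sign (tp O e g h) = Perm.sign g := by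
  rw [tp, Perm.sign_permCongr]
  convert Perm.sign_subtypePerm g h h2

end transport

/-- Package ORB. -/
theorem lemAbOrb_of (hE : LemAbExist) (hB : LemAbBound) (hN : LemAbNum) (hNG : LemAbNumG) :
    LemAbOrb := by
  intro Ω _ _ A a O hA hn3 hn5 hO
  classical
  obtain ⟨hAlt, hcomm, hmax⟩ := hA
  have haO : a ∈ O := (hO a).2 ⟨1, A.one_mem, rfl⟩
  have hfw : ∀ g ∈ A, ∀ x ∈ O, g x ∈ O := by
    intro g hg x hx
    obtain ⟨t, ht, rfl⟩ := (hO x).1 hx
    exact (hO _).2 ⟨g * t, A.mul_mem hg ht, rfl⟩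
  have hinv : ∀ g ∈ A, ∀ x, g x ∈ O ↔ x ∈ O := by
    intro g hg x
    refine ⟨fun h => ?_, hfw g hg x⟩
    have h1 := hfw g⁻¹ (A.inv_mem hg) _ h
    simpa using h1
  have F1 : ∀ g ∈ A, ∀ g' ∈ A, ∀ y ∈ O, g y = g' y → ∀ x ∈ O, g x = g' x := by
    intro g hg g' hg' y hy hyy x hx
    obtain ⟨t, ht, rfl⟩ := (hO y).1 hy
    obtain ⟨s, hs, rfl⟩ := (hO x).1 hx
    have e1 : g (t a) = t (g a) := congrArg (fun p : Perm Ω => p a) (hcomm g hg t ht)
    have e2 : g' (t a) = t (g' a) := congrArg (fun p : Perm Ω => p a) (hcomm g' hg' t ht)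
    have e3 : g a = g' a := t.injective (by rw [← e1, ← e2, hyy])
    have e4 : g (s a) = s (g a) := congrArg (fun p : Perm Ω => p a) (hcomm g hg s hs)
    have e5 : g' (s a) = s (g' a) := congrArg (fun p : Perm Ω => p a) (hcomm g' hg' s hs)
    rw [e4, e5, e3]
  -- restriction to the complement
  let ρ : A →* Perm {x // x ∉ O} :=
    { toFun := fun σ => (σ : Perm Ω).subtypePerm (p := fun x => x ∉ O)
        (fun x => (hinv σ σ.2 x).not)
      map_one' := by ext b; rfl
      map_mul' := by intro σ τ; ext b; rfl }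
  have hker : ∀ k : A, k ∈ ρ.ker ↔ ∀ x, x ∉ O → (k : Perm Ω) x = x := by
    intro k
    rw [MonoidHom.mem_ker]
    constructor
    · intro h x hx
      have h2 : ρ k ⟨x, hx⟩ = ⟨x, hx⟩ := by rw [h]; rfl
      exact congrArg Subtype.val h2
    · intro h
      ext ⟨x, hx⟩
      exact h x hx
  have hAcard : Nat.card A = Nat.card ρ.ker * Nat.card ρ.range := by
    rw [← Subgroup.index_ker, Subgroup.card_mul_index]
  have hRcomm : ∀ x ∈ ρ.range, ∀ y ∈ ρ.range, x * y = y * x := by
    rintro _ ⟨u, rfl⟩ _ ⟨v, rfl⟩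
    rw [← map_mul, ← map_mul]
    congr 1
    exact Subtype.ext (hcomm u u.2 v v.2)
  have hRcommI : IsMulCommutative ρ.range := by
    refine isMulCommutative_iff.mpr ?_
    rintro ⟨x, hx⟩ ⟨y, hy⟩
    exact Subtype.ext (hRcomm x hx y hy)
  have hKinj : ∀ b ∈ O, ∀ k ∈ ρ.ker, ∀ k' ∈ ρ.ker, (k : Perm Ω) b = (k' : Perm Ω) b →
      k = k' := by
    intro b hb k hk k' hk' h
    apply Subtype.ext
    ext x
    by_cases hx : x ∈ O
    · exact F1 k k.2 k' k'.2 b hb h x hx
    · rw [(hker k).1 hk x hx, (hker k').1 hk' x hx]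
  have hOc : Nat.card {x // x ∈ O} = O.card := by
    rw [Nat.card_eq_fintype_card, Fintype.card_coe]
  have hKle : Nat.card ρ.ker ≤ O.card := by
    rw [← hOc]
    apply Nat.card_le_card_of_injective
      (fun k : ρ.ker => (⟨((k : A) : Perm Ω) a, hfw _ (k : A).2 a haO⟩ : {x // x ∈ O}))
    intro k k' h
    exact Subtype.ext (hKinj a haO k k.2 k' k'.2 (congrArg Subtype.val h))
  have hTwo : ∀ b ∈ O, (∀ k ∈ ρ.ker, ((k : A) : Perm Ω) a ≠ b) →
      2 * Nat.card ρ.ker ≤ O.card := by
    intro b hb hne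
    have h2 : Nat.card (ρ.ker ⊕ ρ.ker) = 2 * Nat.card ρ.ker := by rw [Nat.card_sum]; ring
    rw [← hOc, ← h2]
    apply Nat.card_le_card_of_injective (fun s : ρ.ker ⊕ ρ.ker =>
      Sum.elim (fun k : ρ.ker => (⟨((k : A) : Perm Ω) a, hfw _ (k : A).2 a haO⟩ : {x // x ∈ O}))
        (fun k : ρ.ker => (⟨((k : A) : Perm Ω) b, hfw _ (k : A).2 b hb⟩ : {x // x ∈ O})) s)
    rintro (k | k) (k' | k') h
    · simp only [Sum.elim_inl] at h
      exact congrArg Sum.inl (Subtype.ext (hKinj a haO k k.2 k' k'.2 (congrArg Subtype.val h)))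
    · exfalso
      simp only [Sum.elim_inl, Sum.elim_inr] at h
      have h' : ((k : A) : Perm Ω) a = ((k' : A) : Perm Ω) b := congrArg Subtype.val h
      refine hne ((k' : A)⁻¹ * (k : A)) (ρ.ker.mul_mem (ρ.ker.inv_mem k'.2) k.2) ?_
      simp [h']
    · exfalso
      simp only [Sum.elim_inl, Sum.elim_inr] at h
      have h' : ((k : A) : Perm Ω) b = ((k' : A) : Perm Ω) a := congrArg Subtype.val h
      refine hne ((k : A)⁻¹ * (k' : A)) (ρ.ker.mul_mem (ρ.ker.inv_mem k.2) k'.2) ?_
      simp [← h']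
    · simp only [Sum.elim_inr] at h
      exact congrArg Sum.inr (Subtype.ext (hKinj b hb k k.2 k' k'.2 (congrArg Subtype.val h)))
  -- numerics
  have hm1 : 1 ≤ O.card := Finset.card_pos.2 ⟨a, haO⟩
  have hmn : O.card ≤ Fintype.card Ω := Finset.card_le_univ O
  have hcc : Fintype.card {x // x ∉ O} = Fintype.card Ω - O.card := by
    rw [Fintype.card_subtype_compl (· ∈ O), Fintype.card_coe]
  have hfA : fmax (Fintype.card Ω) ≤ Nat.card A := by
    obtain ⟨C, hC1, hC2, hC3⟩ := hE Ω
    rw [← hC3]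
    exact hmax C hC1 hC2
  have hsgnK : ∀ k ∈ ρ.ker,
      Perm.sign (((k : A) : Perm Ω).subtypePerm (hinv _ (k : A).2)) = 1 := by
    intro k hk
    have h1 := Perm.sign_subtypePerm ((k : A) : Perm Ω) (hinv _ (k : A).2)
      (fun x hx => by by_contra hxO; exact hx ((hker k).1 hk x hxO))
    have h2 := Perm.mem_alternatingGroup.1 (hAlt k.2)
    rw [h2] at h1
    convert h1
  -- the restriction to the complement is even
  have hRalt : ρ.range ≤ alternatingGroup {x // x ∉ O} := by
    rintro _ ⟨g, rfl⟩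
    rw [Perm.mem_alternatingGroup]
    by_contra hne
    have hs := sign_split O (g : Perm Ω) (hinv g g.2)
    rw [Perm.mem_alternatingGroup.1 (hAlt g.2)] at hs
    have hsO : Perm.sign ((g : Perm Ω).subtypePerm (hinv g g.2)) ≠ 1 := by
      intro h1
      rw [h1, one_mul] at hs
      exact hne hs.symm
    have h2K : 2 * Nat.card ρ.ker ≤ O.card := by
      apply hTwo ((g : Perm Ω) a) (hfw g g.2 a haO)
      intro k hk hka
      apply hsO
      have h3 : (g : Perm Ω).subtypePerm (hinv g g.2) =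
          ((k : A) : Perm Ω).subtypePerm (hinv k k.2) := by
        ext ⟨x, hx⟩
        exact (F1 k k.2 g g.2 a haO hka x hx).symm
      rw [h3]; exact hsgnK k hk
    have hR := abelian_bound (Fintype.card Ω - O.card) {x // x ∉ O} hcc ρ.range hRcommI
    have hgm := gmax_mul O.card (Fintype.card Ω - O.card) hm1
    rw [Nat.sub_add_cancel hmn] at hgm
    have hng := hNG (Fintype.card Ω) hn3
    have h4 : 2 * Nat.card A ≤ O.card * gmax (Fintype.card Ω - O.card) := by
      rw [hAcard]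
      calc 2 * (Nat.card ρ.ker * Nat.card ρ.range)
          = (2 * Nat.card ρ.ker) * Nat.card ρ.range := by ring
        _ ≤ _ := Nat.mul_le_mul h2K hR
    omega
  have hRle : Nat.card ρ.range ≤ fmax (Fintype.card Ω - O.card) := by
    have h1 := hB {x // x ∉ O} ρ.range hRalt hRcomm
    rwa [hcc] at h1
  -- the case `m % 4 = 2`
  have hmod : O.card % 4 = 2 → 2 * Nat.card ρ.ker ≤ O.card := by
    intro h42
    by_contra hlt
    have hsurj : ∀ b ∈ O, ∃ k ∈ ρ.ker, ((k : A) : Perm Ω) a = b := by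
      intro b hb
      by_contra hno
      push Not at hno
      exact hlt (hTwo b hb hno)
    have hKm : Nat.card ρ.ker = O.card := by
      refine le_antisymm hKle ?_
      rw [← hOc]
      apply Nat.card_le_card_of_surjective
        (fun k : ρ.ker => (⟨((k : A) : Perm Ω) a, hfw _ (k : A).2 a haO⟩ : {x // x ∈ O}))
      rintro ⟨b, hb⟩
      obtain ⟨k, hk, hkb⟩ := hsurj b hb
      exact ⟨⟨k, hk⟩, Subtype.ext hkb⟩
    have h2dvd : 2 ∣ Nat.card ρ.ker := by rw [hKm]; omega
    have : Fact (Nat.Prime 2) := ⟨Nat.prime_two⟩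
    obtain ⟨k, hk⟩ := exists_prime_orderOf_dvd_card' 2 h2dvd
    set σ : Perm Ω := ((k : A) : Perm Ω) with hσ
    have hσA : σ ∈ A := (k : A).2
    have hσ1 : σ ≠ 1 := by
      intro h1
      have : k = 1 := Subtype.ext (Subtype.ext h1)
      rw [this, orderOf_one] at hk
      omega
    have hσ2 : σ ^ 2 = 1 := by
      have h1 : k ^ 2 = 1 := by rw [← hk]; exact pow_orderOf_eq_one k
      have h2 := congrArg (fun z : ρ.ker => ((z : A) : Perm Ω)) h1
      simpa using h2
    have hσo : orderOf σ = 2 := orderOf_eq_prime hσ2 hσ1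
    have hσout : ∀ x, x ∉ O → σ x = x := (hker k).1 k.2
    have hσfpf : ∀ x ∈ O, σ x ≠ x := by
      intro x hx hfix
      apply hσ1
      ext y
      by_cases hy : y ∈ O
      · exact F1 σ hσA 1 A.one_mem x hx hfix y hy
      · exact hσout y hy
    have hsupp : σ.support = O := by
      ext x
      rw [Perm.mem_support]
      constructor
      · intro hx
        by_contra hxO
        exact hx (hσout x hxO)
      · exact hσfpf x
    obtain ⟨j, hj⟩ := Perm.cycleType_prime_order (σ := σ) (by rw [hσo]; exact Nat.prime_two)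
    have hsum := Perm.sum_cycleType σ
    rw [hj, hsupp, hσo, Multiset.sum_replicate, smul_eq_mul] at hsum
    have hsign := Perm.sign_of_cycleType σ
    rw [hj, hσo, Multiset.sum_replicate, smul_eq_mul, Multiset.card_replicate,
      Perm.mem_alternatingGroup.1 (hAlt hσA)] at hsign
    have hodd : Odd ((j + 1) * 2 + (j + 1)) := by
      rw [Nat.odd_iff]; omega
    rw [hodd.neg_one_pow] at hsign
    revert hsign; decide
  -- the numerical lemma
  have hnum := hN O.card (Fintype.card Ω) (Nat.card ρ.ker) hm1 hmn hn3 hKle hmod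
    (by
      calc fmax (Fintype.card Ω) ≤ Nat.card A := hfA
        _ = Nat.card ρ.ker * Nat.card ρ.range := hAcard
        _ ≤ Nat.card ρ.ker * fmax (Fintype.card Ω - O.card) := Nat.mul_le_mul le_rfl hRle)
  obtain ⟨hκ, hfm, hcases⟩ := hnum
  have hm34 : O.card = 3 ∨ O.card = 4 := by
    rcases hcases with h | h | h
    · exact Or.inl h.1
    · exact Or.inr h.1
    · exact absurd h.2 hn5
  have hreg : ∀ b ∈ O, ∃ k ∈ ρ.ker, ((k : A) : Perm Ω) a = b := by
    intro b hb
    by_contra hno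
    push Not at hno
    have := hTwo b hb hno
    omega
  have hRcard : Nat.card ρ.range = fmax (Fintype.card Ω - O.card) := by
    refine le_antisymm hRle ?_
    have h1 : O.card * fmax (Fintype.card Ω - O.card) ≤ O.card * Nat.card ρ.range := by
      rw [← hfm, ← hκ, ← hAcard]; exact hfA
    exact Nat.le_of_mul_le_mul_left h1 hm1
  -- conclusion 5
  have h5 : ∀ g ∈ A, ∃ c ∈ A, (∀ x, x ∉ O → c x = x) ∧ ∀ x ∈ O, c x = g x := by
    intro g hg
    obtain ⟨k, hk, hka⟩ := hreg (g a) (hfw g hg a haO)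
    exact ⟨(k : Perm Ω), k.2, (hker k).1 hk, F1 k k.2 g hg a haO hka⟩
  -- conclusion 4, forward direction
  have h4a : ∀ g : Perm Ω, (∀ x, x ∉ O → g x = x) → g ∈ A → CanOn g O := by
    intro g hgout hgA
    by_cases hex : ∃ y ∈ O, g y = y
    · obtain ⟨y, hy, hgy⟩ := hex
      exact Or.inl (F1 g hgA 1 A.one_mem y hy hgy)
    · push Not at hex
      refine Or.inr ⟨hex, fun h4 => ?_⟩
      by_contra hno
      push Not at hno
      obtain ⟨x0, hx0, hgx0⟩ := hno
      have hsq : ∀ x ∈ O, g (g x) ≠ x := by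
        intro x hx hfix
        exact hgx0 (F1 (g * g) (A.mul_mem hgA hgA) 1 A.one_mem x hx hfix x0 hx0)
      have e : {x // x ∈ O} ≃ Fin 4 := Fintype.equivFinOfCardEq (by rw [Fintype.card_coe, h4])
      have hs := fin4_sign (tp O e g (hinv g hgA)) (tp_fpf O e g _ hex) (tp_sq_fpf O e g _ hsq)
      rw [tp_sign O e g _ (fun x hx => by by_contra hxO; exact hx (hgout x hxO)),
        Perm.mem_alternatingGroup.1 (hAlt hgA)] at hs
      revert hs; decide
  refine ⟨hm34, ?_, ?_, ?_, h5⟩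
  · intro h3
    rcases hcases with h | h | h
    · exact h.1
    · exfalso
      rcases h.2 with h' | h'
      · omega
      · omega
    · exact absurd h.2 hn5
  · -- conclusion 3
    have hsub : ρ.range ≤ A.comap (Perm.ofSubtype : Perm {x // x ∉ O} →* Perm Ω) := by
      rintro _ ⟨g, rfl⟩
      rw [Subgroup.mem_comap]
      obtain ⟨c, hcA, hc1, hc2⟩ := h5 g g.2
      have h6 : Perm.ofSubtype (ρ g) = (g : Perm Ω) * c⁻¹ := by
        ext x
        by_cases hx : x ∈ O
        · rw [Perm.ofSubtype_apply_of_not_mem (p := fun x => x ∉ O) (ρ g) (not_not.2 hx),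
            Perm.mul_apply]
          have hcx : c⁻¹ x ∈ O := (hinv c⁻¹ (A.inv_mem hcA) x).2 hx
          rw [← hc2 _ hcx]
          simp
        · rw [Perm.ofSubtype_apply_of_mem (p := fun x => x ∉ O) (ρ g) hx, Perm.mul_apply]
          have hcx : c⁻¹ x = x := by
            rw [Perm.inv_eq_iff_eq]; exact (hc1 x hx).symm
          rw [hcx]
          rfl
      rw [h6]
      exact A.mul_mem g.2 (A.inv_mem hcA)
    refine ⟨?_, ?_, ?_⟩
    · intro h hh
      have h1 := hAlt (Subgroup.mem_comap.1 hh)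
      rw [Perm.mem_alternatingGroup] at h1 ⊢
      rw [← h1]
      exact (Perm.sign_ofSubtype h).symm
    · intro x hx y hy
      apply Perm.ofSubtype_injective
      rw [map_mul, map_mul]
      exact hcomm _ (Subgroup.mem_comap.1 hx) _ (Subgroup.mem_comap.1 hy)
    · intro C hC hCc
      calc Nat.card C ≤ fmax (Fintype.card {x // x ∉ O}) := hB _ C hC hCc
        _ = Nat.card ρ.range := by rw [hcc, hRcard]
        _ ≤ _ := Subgroup.card_le_of_le hsub
  · -- conclusion 4
    intro g hgout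
    refine ⟨h4a g hgout, ?_⟩
    rintro (hfix | ⟨hfpf, h4⟩)
    · have : g = 1 := by
        ext x
        by_cases hx : x ∈ O
        · exact hfix x hx
        · exact hgout x hx
      rw [this]; exact A.one_mem
    · have hginv : ∀ x, g x ∈ O ↔ x ∈ O := by
        intro x
        constructor
        · intro h
          by_contra hx
          rw [hgout x hx] at h
          exact hx h
        · intro hx
          by_contra h
          exact hfpf x hx (g.injective (hgout _ h))
      obtain ⟨k, hk, hka⟩ := hreg (g a) ((hginv a).2 haO)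
      have hkout : ∀ x, x ∉ O → (k : Perm Ω) x = x := (hker k).1 hk
      have hkcan := h4a (k : Perm Ω) hkout k.2
      have hkfpf : (∀ x ∈ O, (k : Perm Ω) x ≠ x) ∧
          (O.card = 4 → ∀ x ∈ O, (k : Perm Ω) ((k : Perm Ω) x) = x) := by
        rcases hkcan with h | h
        · exfalso
          have := h a haO
          rw [hka] at this
          exact hfpf a haO this
        · exact h
      have hgk : ∀ x ∈ O, g x = (k : Perm Ω) x := by
        rcases hm34 with h3 | h4'
        · have e : {x // x ∈ O} ≃ Fin 3 := Fintype.equivFinOfCardEq (by rw [Fintype.card_coe, h3])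
          apply tp_eq O e g (k : Perm Ω) hginv (hinv k k.2)
          apply fin3_unique _ _ (tp_fpf O e g _ hfpf) (tp_fpf O e _ _ hkfpf.1) (e ⟨a, haO⟩)
          rw [tp_apply, tp_apply]
          exact congrArg e (Subtype.ext hka.symm)
        · have e : {x // x ∈ O} ≃ Fin 4 := Fintype.equivFinOfCardEq (by rw [Fintype.card_coe, h4'])
          apply tp_eq O e g (k : Perm Ω) hginv (hinv k k.2)
          apply fin4_unique _ _ (tp_fpf O e g _ hfpf) (tp_invol O e g _ (h4 h4'))
            (tp_fpf O e _ _ hkfpf.1) (tp_invol O e _ _ (hkfpf.2 h4')) (e ⟨a, haO⟩)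
          rw [tp_apply, tp_apply]
          exact congrArg e (Subtype.ext hka.symm)
      have : g = (k : Perm Ω) := by
        ext x
        by_cases hx : x ∈ O
        · exact hgk x hx
        · rw [hgout x hx, hkout x hx]
      rw [this]; exact k.2

end Cfsg.Agent.Lib.Helper27.AB
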